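import Cfsg.Agent.H92.Tall.Exc
import Cfsg.Agent.KFacts.TwESix.Cent
import Cfsg.Agent.OddHalf.DblR.SheetTwE6
import Cfsg.Agent.HexStart.HexLong
import Cfsg.Agent.HexModel.Main
import Cfsg.Agent.StdRank2.HexSylow

/-!
# S2927 [LAT]: `RowTwo` for `³D₄(q)` and `²E₆(q)`, `q` even (helper92)

* `rowTwo_hex`: the groups with a hexagonal root system (`HexTwo`) in characteristic 2: an involution in the centre of
  `U` commutes with `⟨X₁, X₇⟩`, which has an element of order 3;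
* `rowTwo_twD4`, `rowTwo_twE6`, `rowTwo_twisted`, `no2_twisted` (`IsTwistedE6D4Char 2`).
-/

set_option autoImplicit false
set_option linter.unusedSectionVars false

namespace Cfsg.Agent.H92.Tall

open Subgroup Cfsg.Lie
open Cfsg.Agent.H226.Tall

universe u

theorem not_isPGroup_of_cube {G : Type*} [Group G] {z d : G} (hc : d * z = z * d) (h3 : d ^ 3 = 1) (h1 : d ≠ 1) :
    ¬ IsPGroup 2 ↥(centralizer ({z} : Set G)) := by
  intro hp
  obtain ⟨k, hk⟩ := hp ⟨d, mem_centralizer_singleton_iff.2 hc⟩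
  have h4 : d ^ 2 ^ k = 1 := congrArg Subtype.val hk
  have h5 : orderOf d ∣ 2 ^ k := orderOf_dvd_of_pow_eq_one h4
  have h6 : orderOf d ∣ 3 := orderOf_dvd_of_pow_eq_one h3
  have h7 : Nat.Coprime 3 (2 ^ k) := Nat.Coprime.pow_right k (by norm_num)
  exact h1 (orderOf_eq_one_iff.1 (Nat.eq_one_of_dvd_coprimes h7 h6 h5))

theorem cube_of_refl {G : Type*} [Group G] {a b : G} (ha : a * a = 1) (hb : b * b = 1)
    (h : a * b * a * a * (a * b * a)⁻¹ = b) : (a * b) ^ 3 = 1 := by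
  have h1 : a * b * a * a = b * (a * b * a) := by
    calc a * b * a * a = a * b * a * a * (a * b * a)⁻¹ * (a * b * a) := by group
      _ = b * (a * b * a) := by rw [h]
  have h2 : a * b = b * a * b * a := by
    calc a * b = a * b * (a * a) := by rw [ha, mul_one]
      _ = a * b * a * a := by group
      _ = b * (a * b * a) := h1
      _ = _ := by group
  calc (a * b) ^ 3 = (a * b) * (a * b) * (a * b) := by rw [pow_succ, pow_two]
    _ = (b * a * b * a) * (a * b) * (a * b) := by rw [← h2]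
    _ = b * a * b * (a * a) * b * (a * b) := by group
    _ = b * a * (b * b) * (a * b) := by rw [ha]; group
    _ = b * (a * a) * b := by rw [hb]; group
    _ = 1 := by rw [ha, mul_one, hb]

section Hex

open Cfsg.Agent.StdRank2.Hex Cfsg.Agent.StdRank2.Hex.HexTwo

variable {E : Type*} [Field E] {σ : E ≃+* E} {G : Type*} [Group G] {x : ZMod 12 → E → G}

/-- `RowTwo` for the hexagonal groups in characteristic 2 -/
theorem rowTwo_hex [Finite E] [Finite G] (h : HexTwo σ x) (htop : AA σ x = ⊤) : RowTwo G := by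
  have hp2 : Fact (Nat.Prime 2) := ⟨Nat.prime_two⟩
  -- `U` is a Sylow 2-subgroup
  have hi : ¬ 2 ∣ (UU σ x).index := by
    obtain ⟨P, hP⟩ := h.isPGroup_U.exists_le_sylow
    obtain ⟨p, -, hp⟩ := h.sylow_conj (S := ⊤) le_top (by rw [htop]) P.isPGroup' le_top
    have h1 : ((P : Subgroup G).map (MulAut.conj p).toMonoidHom) ≤ UU σ x := by
      rintro _ ⟨y, hy, rfl⟩
      exact hp y hy
    have h2 : Nat.card ↥(P : Subgroup G) ≤ Nat.card ↥(UU σ x) := by
      rw [Nat.card_congr ((P : Subgroup G).equivMapOfInjective (MulAut.conj p).toMonoidHom (MulAut.conj p).injective).toEquiv]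
      exact Subgroup.card_le_of_le h1
    have h3 : UU σ x = P := Subgroup.eq_of_le_of_card_ge hP h2
    rw [h3]
    exact P.not_dvd_index
  intro z hz hp
  obtain ⟨g, h1, h2⟩ := exists_std h.isPGroup_U hi hz
  have h4 : g * z * g⁻¹ ∈ gen σ x {4} := Cfsg.Agent.HexStart.mem_center_U h h1 h2
  have hx : ∀ k : ZMod 12, (k - 1).val < 7 → x k 1 * (g * z * g⁻¹) = g * z * g⁻¹ * x k 1 := fun k hk =>
    Cfsg.Agent.HexStart.X4_comm h h4 (Cfsg.Agent.HexStart.x_mem_P1 hk (ok_one σ k))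
  have hsq : ∀ k, x k 1 * x k 1 = 1 := fun k => h.x_sq (ok_one σ k)
  have href : x 1 1 * x 7 1 * x 1 1 * x 1 1 * (x 1 1 * x 7 1 * x 1 1)⁻¹ = x 7 1 := by
    have h5 : nn x 1 * x 1 1 * (nn x 1)⁻¹ = x (8 - 1) 1 := h.refl1 1 1 (ok_one σ 1)
    have e1 : (1 : ZMod 12) + 6 = 7 := by decide
    have e2 : (8 : ZMod 12) - 1 = 7 := by decide
    have hnn : nn x 1 = x 1 1 * x 7 1 * x 1 1 := by
      unfold nn
      rw [e1]
    rwa [hnn, e2] at h5
  refine not_isPGroup_of_cube (z := g * z * g⁻¹) (d := x 1 1 * x 7 1) ?_ (cube_of_refl (hsq 1) (hsq 7) href) ?_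
    (isPGroup_conj g hp)
  · have e1 := hx 1 (by decide)
    have e7 := hx 7 (by decide)
    calc x 1 1 * x 7 1 * (g * z * g⁻¹) = x 1 1 * (x 7 1 * (g * z * g⁻¹)) := by group
      _ = x 1 1 * (g * z * g⁻¹ * x 7 1) := by rw [e7]
      _ = x 1 1 * (g * z * g⁻¹) * x 7 1 := by group
      _ = g * z * g⁻¹ * x 1 1 * x 7 1 := by rw [e1]
      _ = _ := by group
  · intro h6
    have h7 : x 1 1 = x 7 1 := by
      calc x 1 1 = x 1 1 * (x 7 1 * x 7 1) := by rw [hsq 7, mul_one]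
        _ = x 1 1 * x 7 1 * x 7 1 := by group
        _ = x 7 1 := by rw [h6, one_mul]
    have h8 := h.root_unique (ok_one σ 1) (ok_one σ 7) one_ne_zero h7
    exact absurd h8 (by decide)

end Hex

/-- **`³D₄(q)`, `q` even** -/
theorem rowTwo_D4 {K : Type*} [Field K] [Fintype K] {a : ℕ} (ha : 1 ≤ a) (hK : Fintype.card K = 8 ^ a) :
    RowTwo ↥(twistedD4 K (2 ^ a)) := by
  have h2 : (2 : K) = 0 := by
    apply HexModel.Main.two_eq_zero (n := 3 * a)
    rw [hK, pow_mul]; norm_num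
  obtain ⟨σ, hσ, h3, -, -⟩ := HexModel.Main.exists_sigma ha hK
  exact rowTwo_hex (HexModel.Main.d4_hexTwo hσ h2 h3) (HexModel.Main.d4_top hσ h2)

section TwE6

open CoxeterSystem Cfsg.Agent.ChevalleyStructure.CoxeterGeom Cfsg.Agent.Tits.Roots Cfsg.Agent.Nodes.Reps
  Cfsg.Agent.Nodes.BNOf Cfsg.Agent.Nodes.Bruhat Cfsg.Agent.Nodes.Coroot Cfsg.Agent.Nodes.RGDTwE6
  Cfsg.Agent.KFacts.RgdTI Cfsg.Agent.KFacts.TwESix.Comb

/-- **`²E₆(q)`, `q` even** -/
theorem rowTwo_twE6 {K : Type*} [Field K] [Fintype K] [CharP K 2] {q : ℕ} (hq : IsPrimePow q)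
    (hK : Fintype.card K = q ^ 2) : RowTwo ↥(twistedE6 K q) := by
  have : Fact (Nat.Prime 2) := ⟨Nat.prime_two⟩
  obtain ⟨φ, hφ, hqq⟩ := Cfsg.Agent.ChevalleyStructure.TwE6Basic.exists_frob hq hK
  have hW : Finite CoxeterMatrix.F₄.Group := finiteW CoxeterMatrix.F₄.toCoxeterSystem
  have D := Cfsg.Agent.KFacts.TwESix.Dat.dat CoxeterMatrix.F₄.toCoxeterSystem hφ hqq hK hq.one_lt
  have hN := Cfsg.Agent.OddHalf.DblR.SheetTwE6.noCent CoxeterMatrix.F₄.toCoxeterSystem hφ hqq hq hK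
  have hG : GG CoxeterMatrix.F₄.toCoxeterSystem isCartan (T K q) (X φ q) = ⊤ := by
    rw [eq_top_iff, ← G1_eq_top CoxeterMatrix.F₄.toCoxeterSystem hφ hqq]
    exact le_sup_right
  have hL := D.lr rho (rho_root _) rho_long
  refine rowTwo_of_rgd (rgd CoxeterMatrix.F₄.toCoxeterSystem hφ hqq 2) hG 1 fun z hz hc => ?_
  have h1 : z ∈ X φ q rho := by
    refine Cfsg.Agent.KFacts.TwESix.Cent.k1 D (rho_root _) rho_long hN (by rw [hG]; exact Subgroup.mem_top z) ?_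
    intro a ha h0 v hv
    rw [cpr_rho] at h0
    refine hc v (RGD.le_Sup (S := RGD.Pos CoxeterMatrix.F₄.toCoxeterSystem isCartan) ⟨ha, ?_⟩ hv)
    rcases ha.pos_or_neg with h2 | h2
    · exact h2
    · exact absurd (h2 0) (not_le.2 h0)
  have h2 : ((sr 1 : Fin 4 → ℤ)) 0 = 0 := by decide
  refine ⟨fun v hv => (hL.comm _ (isRoot_sr _ _ 1) (by rw [cpr_rho, h2]) v hv z h1).symm, fun v hv =>
    (hL.comm _ (isRoot_sr _ _ 1).neg (by rw [cpr_rho, Pi.neg_apply, h2, neg_zero]) v hv z h1).symm⟩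

end TwE6

/-- **`³D₄(q)`, `q` even** -/
theorem rowTwo_twD4 {K : Type*} [Field K] [Fintype K] [CharP K 2] {q : ℕ} (hq : IsPrimePow q)
    (hK : Fintype.card K = q ^ 3) : RowTwo ↥(twistedD4 K q) := by
  have : Fact (Nat.Prime 2) := ⟨Nat.prime_two⟩
  obtain ⟨p, k, hp, hk, rfl⟩ := (isPrimePow_nat_iff q).1 hq
  obtain ⟨n, -, hn⟩ := FiniteField.card K 2
  have h1 : p ∣ 2 ^ (n : ℕ) := by
    rw [← hn, hK, ← pow_mul]
    exact dvd_pow_self p (by positivity)
  have h2 : p = 2 := (Nat.prime_dvd_prime_iff_eq hp Nat.prime_two).1 (hp.dvd_of_dvd_pow h1)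
  subst h2
  refine rowTwo_D4 hk ?_
  rw [hK, ← pow_mul, mul_comm, pow_mul]
  norm_num

theorem rowTwo_twisted {G : Type u} [Group G] (hG : IsTwistedE6D4Char 2 G) : RowTwo G := by
  obtain ⟨K, _, _, _, q, hq, hG⟩ := hG
  rcases hG with ⟨hK, ⟨e⟩⟩ | ⟨hK, ⟨e⟩⟩
  · exact (rowTwo_twE6 hq hK).congr e.symm
  · exact (rowTwo_twD4 hq hK).congr e.symm

/-- **[LAT], `³D₄(q)` and `²E₆(q)`** -/
theorem no2_twisted : No2.{u} (fun K _ => IsTwistedE6D4Char 2 K) := fun h hK => h.false_of_rowTwo (rowTwo_twisted hK)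

end Cfsg.Agent.H92.Tall

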